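import Mathlib

/-!
# S5719, PSp_4(q): a counting lemma (helper580)

`P ≤ S`, `|P| = q`, all nonidentity elements of `P` are conjugate in `S`, `X ≤ S` of index `< q`: then `P ≤ X`.
-/

set_option autoImplicit false
set_option linter.unusedSectionVars false

namespace Cfsg.Agent.H580.Fx

open MulAction Subgroup

theorem le_of_index_lt {S : Type*} [Group S] [Finite S] (P X : Subgroup S)
    (hP : ∀ x ∈ P, ∀ y ∈ P, x ≠ 1 → y ≠ 1 → IsConj x y) (hX : X.index < Nat.card P) : P ≤ X := by
  classical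
  have : Fintype S := Fintype.ofFinite S
  have : Fintype P := Fintype.ofFinite P
  have : Fintype (S ⧸ X) := Fintype.ofFinite _
  by_cases h1 : ∃ a ∈ P, a ≠ 1
  swap
  · push Not at h1
    intro x hx
    rw [h1 x hx]
    exact X.one_mem
  obtain ⟨a, ha, ha1⟩ := h1
  -- number of fixed points
  have hfix : ∀ x ∈ P, x ≠ 1 → Fintype.card (fixedBy (S ⧸ X) x) = Fintype.card (fixedBy (S ⧸ X) a) := by
    intro x hx hx1
    obtain ⟨c, hc⟩ := isConj_iff.1 (hP a ha x hx ha1 hx1)
    symm
    refine Fintype.card_congr ⟨fun y => ⟨c • y.1, ?_⟩, fun y => ⟨c⁻¹ • y.1, ?_⟩, fun y => ?_, fun y => ?_⟩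
    · have h2 := y.2
      rw [mem_fixedBy] at h2 ⊢
      rw [← hc, smul_smul, mul_assoc, mul_assoc, inv_mul_cancel, mul_one, ← smul_smul, h2]
    · have h2 := y.2
      rw [mem_fixedBy] at h2 ⊢
      have h3 : a * c⁻¹ = c⁻¹ * x := by rw [← hc]; group
      rw [smul_smul, h3, ← smul_smul, h2]
    · exact Subtype.ext (inv_smul_smul c y.1)
    · exact Subtype.ext (smul_inv_smul c y.1)
  have hb := MulAction.sum_card_fixedBy_eq_card_orbits_mul_card_group P (S ⧸ X)
  have hsplit : ∑ x : P, Fintype.card (fixedBy (S ⧸ X) x) =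
      Fintype.card (S ⧸ X) + (Fintype.card P - 1) * Fintype.card (fixedBy (S ⧸ X) a) := by
    rw [← Finset.add_sum_erase Finset.univ _ (Finset.mem_univ (1 : P))]
    congr 1
    · refine Fintype.card_congr ⟨fun y => y.1, fun y => ⟨y, ?_⟩, fun y => rfl, fun y => rfl⟩
      rw [mem_fixedBy, one_smul]
    · rw [Finset.sum_congr rfl (g := fun _ => Fintype.card (fixedBy (S ⧸ X) a))]
      · rw [Finset.sum_const, Finset.card_erase_of_mem (Finset.mem_univ _), Finset.card_univ, smul_eq_mul]
      · intro x hx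
        have h2 : (x : S) ≠ 1 := fun h => (Finset.ne_of_mem_erase hx) (Subtype.ext h)
        exact hfix x x.2 h2
  rw [hsplit] at hb
  have hle : Fintype.card (fixedBy (S ⧸ X) a) ≤ Fintype.card (S ⧸ X) :=
    Fintype.card_le_of_injective (fun y => y.1) Subtype.val_injective
  have hq : Fintype.card (S ⧸ X) < Fintype.card P := by
    rw [← Nat.card_eq_fintype_card, ← Nat.card_eq_fintype_card]
    exact hX
  have hP1 : 1 ≤ Fintype.card P := Fintype.card_pos
  set m := Fintype.card (S ⧸ X) with hm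
  set f := Fintype.card (fixedBy (S ⧸ X) a) with hf
  set q := Fintype.card P with hq'
  set o := Fintype.card (Quotient (orbitRel P (S ⧸ X))) with ho
  have heq : m = f := by
    obtain ⟨r, hr⟩ : ∃ r, q = r + 1 := ⟨q - 1, by omega⟩
    rw [hr] at hb hq
    simp only [Nat.add_sub_cancel] at hb
    rcases Nat.lt_or_ge f o with h2 | h2
    · -- `o ≥ f + 1`
      have h3 : (f + 1) * (r + 1) ≤ o * (r + 1) := Nat.mul_le_mul_right _ h2
      nlinarith
    · have h3 : o * (r + 1) ≤ f * (r + 1) := Nat.mul_le_mul_right _ h2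
      nlinarith
  -- `a` fixes all points
  have hall : ∀ y : S ⧸ X, a • y = y := by
    have h2 : Function.Surjective (fun y : fixedBy (S ⧸ X) a => y.1) :=
      ((Fintype.bijective_iff_injective_and_card _).2 ⟨Subtype.val_injective, heq.symm⟩).2
    intro y
    obtain ⟨z, rfl⟩ := h2 y
    exact z.2
  intro x hx
  by_cases hx1 : x = 1
  · rw [hx1]
    exact X.one_mem
  obtain ⟨c, hc⟩ := isConj_iff.1 (hP a ha x hx ha1 hx1)
  have h2 := hall ((c⁻¹ : S) : S ⧸ X)
  rw [MulAction.Quotient.smul_coe, smul_eq_mul, eq_comm, QuotientGroup.eq, inv_inv, ← mul_assoc, hc] at h2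
  exact h2

end Cfsg.Agent.H580.Fx
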