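import Cfsg.Agent.H580.IF.EvenA

/-!
# S5719, PSp_4(q), q even, step (b): no transvections in `A` (helper580)
-/

set_option autoImplicit false
set_option linter.unusedSectionVars false
set_option linter.unusedSimpArgs false

namespace Cfsg.Agent.H580.Fx

open MulAction Subgroup Module Cfsg.Agent.H74.Psp

variable {F V : Type*} [Field F] [AddCommGroup V] [Module F V] {B : V →ₗ[F] V →ₗ[F] F}

/-- a symplectic basis of a 4-dimensional space -/
structure Bas (B : V →ₗ[F] V →ₗ[F] F) (e1 e2 f1 f2 : V) : Prop where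
  h11 : B e1 f1 = 1
  h22 : B e2 f2 = 1
  hee : B e1 e2 = 0
  hff : B f1 f2 = 0
  h12 : B e1 f2 = 0
  h21 : B e2 f1 = 0
  ker : ∀ x, B x e1 = 0 → B x e2 = 0 → B x f1 = 0 → B x f2 = 0 → x = 0

namespace Bas

variable {e1 e2 f1 f2 : V} (hB : Symp B) (hb : Bas B e1 e2 f1 f2) [CharP F 2]
include hB hb

theorem r11 : B f1 e1 = 1 := by rw [skew hB, hb.h11, CharTwo.neg_eq]
theorem r22 : B f2 e2 = 1 := by rw [skew hB, hb.h22, CharTwo.neg_eq]
theorem ree : B e2 e1 = 0 := orth_symm hB hb.hee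
theorem rff : B f2 f1 = 0 := orth_symm hB hb.hff
theorem r12 : B f2 e1 = 0 := orth_symm hB hb.h12
theorem r21 : B f1 e2 = 0 := orth_symm hB hb.h21

theorem repr (x : V) : x = B x f1 • e1 + B x f2 • e2 + B x e1 • f1 + B x e2 • f2 := by
  rw [← sub_eq_zero]
  apply hb.ker <;>
  · simp only [map_add, map_sub, map_smul, LinearMap.add_apply, LinearMap.sub_apply, LinearMap.smul_apply, smul_eq_mul,
      hB.alt, hb.h11, hb.h22, hb.hee, hb.hff, hb.h12, hb.h21, hb.r11 hB, hb.r22 hB, hb.ree hB, hb.rff hB, hb.r12 hB,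
      hb.r21 hB]
    ring

theorem ext {g h : Sp B} (h1 : g • e1 = h • e1) (h2 : g • e2 = h • e2) (h3 : g • f1 = h • f1)
    (h4 : g • f2 = h • f2) : g = h := by
  apply Sp.ext'
  intro x
  rw [hb.repr hB x]
  simp only [smul_add', smul_fsmul, h1, h2, h3, h4]

theorem E_f1 (c γ a : F) : E B e1 (c • f2 + γ • e2) a • f1 = f1 + (c • f2 + γ • e2) + a • e1 := by
  rw [E_smul hB (by simp [hb.hee, hb.h12])]
  simp only [map_add, map_smul, hb.hff, hb.r11 hB, hb.r21 hB, smul_eq_mul, mul_zero, mul_one, zero_smul, one_smul,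
    add_zero]

theorem E_f2 (c γ a : F) : E B e1 (c • f2 + γ • e2) a • f2 = f2 + γ • e1 := by
  rw [E_smul hB (by simp [hb.hee, hb.h12])]
  simp only [map_add, map_smul, hB.alt, hb.r12 hB, hb.r22 hB, smul_eq_mul, mul_zero, mul_one, zero_smul, zero_add,
    add_zero]

theorem E_e2 (c γ a : F) : E B e1 (c • f2 + γ • e2) a • e2 = e2 + c • e1 := by
  rw [E_smul hB (by simp [hb.hee, hb.h12])]
  simp only [map_add, map_smul, hB.alt, hb.ree hB, hb.h22, smul_eq_mul, mul_zero, mul_one, zero_smul, zero_add,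
    add_zero]

theorem E_e1 (c γ a : F) : E B e1 (c • f2 + γ • e2) a • e1 = e1 :=
  E_smul_v hB (by simp [hb.hee, hb.h12]) a

theorem E_f1' (γ a : F) : E B e1 (γ • e2) a • f1 = f1 + γ • e2 + a • e1 := by
  have := hb.E_f1 hB 0 γ a
  simpa using this

theorem E_f2' (γ a : F) : E B e1 (γ • e2) a • f2 = f2 + γ • e1 := by
  have := hb.E_f2 hB 0 γ a
  simpa using this

theorem E_e2' (γ a : F) : E B e1 (γ • e2) a • e2 = e2 := by
  have := hb.E_e2 hB 0 γ a
  simpa using this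

theorem E_e1' (γ a : F) : E B e1 (γ • e2) a • e1 = e1 := by
  have := hb.E_e1 hB 0 γ a
  simpa using this

/-- an element fixing `e1` and `e2` -/
theorem form {h : Sp B} (h1 : h • e1 = e1) (h2 : h • e2 = e2) :
    h = E B e1 (B (h • f1) f2 • e2) (B (h • f1) f1) * t B e2 (B (h • f2) f2) := by
  have hf1 : h • f1 = f1 + B (h • f1) f2 • e2 + B (h • f1) f1 • e1 := by
    have h3 := hb.repr hB (h • f1)
    have h4 : B (h • f1) e1 = 1 := by rw [← hb.r11 hB, ← B_smul_smul h f1 e1, h1]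
    have h5 : B (h • f1) e2 = 0 := by rw [← hb.r21 hB, ← B_smul_smul h f1 e2, h2]
    rw [h4, h5] at h3
    rw [h3]
    simp only [map_add, map_smul, LinearMap.add_apply, LinearMap.smul_apply, smul_eq_mul,
      hB.alt, hb.h11, hb.h22, hb.hee, hb.hff, hb.h12, hb.h21, hb.r11 hB, hb.r22 hB, hb.ree hB, hb.rff hB, hb.r12 hB,
      hb.r21 hB]
    module
  have hf2 : h • f2 = f2 + B (h • f2) f1 • e1 + B (h • f2) f2 • e2 := by
    have h3 := hb.repr hB (h • f2)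
    have h4 : B (h • f2) e1 = 0 := by rw [← hb.r12 hB, ← B_smul_smul h f2 e1, h1]
    have h5 : B (h • f2) e2 = 1 := by rw [← hb.r22 hB, ← B_smul_smul h f2 e2, h2]
    rw [h4, h5] at h3
    rw [h3]
    simp only [map_add, map_smul, LinearMap.add_apply, LinearMap.smul_apply, smul_eq_mul,
      hB.alt, hb.h11, hb.h22, hb.hee, hb.hff, hb.h12, hb.h21, hb.r11 hB, hb.r22 hB, hb.ree hB, hb.rff hB, hb.r12 hB,
      hb.r21 hB]
    module
  have hsym : B (h • f2) f1 = B (h • f1) f2 := by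
    have h3 : B (h • f1) (h • f2) = 0 := by rw [B_smul_smul, hb.hff]
    have h4 : B (f1 + B (h • f1) f2 • e2 + B (h • f1) f1 • e1) (f2 + B (h • f2) f1 • e1 + B (h • f2) f2 • e2) = 0 := by
      rw [← hf1, ← hf2, h3]
    generalize B (h • f1) f2 = x at h4 ⊢
    generalize B (h • f2) f1 = y at h4 ⊢
    simp only [map_add, map_smul, LinearMap.add_apply, LinearMap.smul_apply, smul_eq_mul,
      hB.alt, hb.h11, hb.h22, hb.hee, hb.hff, hb.h12, hb.h21, hb.r11 hB, hb.r22 hB, hb.ree hB, hb.rff hB, hb.r12 hB,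
      hb.r21 hB] at h4
    rw [← CharTwo.add_eq_zero]
    linear_combination h4
  apply hb.ext hB
  · rw [mul_smul, t_smul hB, hb.hee, mul_zero, zero_smul, add_zero, hb.E_e1' hB, h1]
  · rw [mul_smul, t_smul hB, hB.alt, mul_zero, zero_smul, add_zero, hb.E_e2' hB, h2]
  · rw [mul_smul, t_smul hB, hb.r21 hB, mul_zero, zero_smul, add_zero, hb.E_f1' hB]
    exact hf1
  · rw [mul_smul, t_smul hB, hb.r22 hB, mul_one, smul_add', smul_fsmul, hb.E_f2' hB, hb.E_e2' hB, ← hsym]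
    exact hf2

/-- conjugating `E e1 (γ e2) α` by an element of `U` -/
theorem conj_R {g : Sp B} {s : F} (h1 : g • e1 = e1) (h2 : g • e2 = e2 + s • e1) (γ α : F) :
    g * E B e1 (γ • e2) α * g⁻¹ = E B e1 (γ • e2) α := by
  have hw : B e1 (γ • e2) = 0 := by rw [map_smul, hb.hee, smul_zero]
  rw [conj_E hB g hw, h1, smul_fsmul, h2, smul_add, smul_smul, E_add_v hB hw, CharTwo.two_eq_zero, zero_mul, add_zero]

/-- conjugating `t e2 b` by an element of `U` -/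
theorem conj_T {g : Sp B} {s : F} (h2 : g • e2 = e2 + s • e1) (b : F) :
    g * t B e2 b * g⁻¹ = t B e2 b * E B e1 ((s * b) • e2) (s ^ 2 * b) := by
  have h0 : B e2 (s • e1) = 0 := by rw [map_smul, hb.ree hB, smul_zero]
  rw [conj_t hB g e2 b, h2, t_add hB h0, mul_assoc]
  congr 1
  have h3 : E B e2 (b • s • e1) 0 = E B e1 ((s * b) • e2) 0 := by
    rw [smul_smul, E_comm0 hB (by rw [map_smul, hb.ree hB, smul_zero]), E_scale hB hb.hee, mul_zero, mul_comm b s]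
  rw [h3, t_scale hB, t, E_mul hB (map_zero _) (by rw [map_smul, hb.hee, smul_zero]), map_zero, zero_add, add_zero,
    add_zero]

end Bas

/-- the Sylow 2-subgroup `U` -/
def UU (B : V →ₗ[F] V →ₗ[F] F) (e1 e2 : V) : Subgroup (Sp B) where
  carrier := {g | g • e1 = e1 ∧ ∃ s : F, g • e2 = e2 + s • e1}
  one_mem' := ⟨one_smul _ _, 0, by rw [one_smul, zero_smul, add_zero]⟩
  mul_mem' := by
    rintro g h ⟨h1, s, h2⟩ ⟨h3, s', h4⟩
    refine ⟨by rw [mul_smul, h3, h1], s + s', ?_⟩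
    rw [mul_smul, h4, smul_add', smul_fsmul, h1, h2, add_smul, add_assoc]
  inv_mem' := by
    rintro g ⟨h1, s, h2⟩
    have h3 : g⁻¹ • e1 = e1 := by rw [inv_smul_eq_iff, h1]
    refine ⟨h3, -s, ?_⟩
    rw [inv_smul_eq_iff, smul_add', smul_fsmul, h1, h2, neg_smul, add_neg_cancel_right]

/-- `Q₂` -/
def QQ (B : V →ₗ[F] V →ₗ[F] F) (e1 e2 : V) : Subgroup (Sp B) := stabilizer (Sp B) e1 ⊓ stabilizer (Sp B) e2

theorem card_le_mul {G M : Type*} [Group G] [Finite G] (φ : G → M) (K : Subgroup G)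
    (h : ∀ a b, φ a = φ b → a⁻¹ * b ∈ K) : Nat.card G ≤ (Set.range φ).ncard * Nat.card K := by
  classical
  choose r hr using fun m : Set.range φ => m.2
  have h1 : Function.Injective (fun g : G => ((⟨φ g, g, rfl⟩ : Set.range φ),
      (⟨(r ⟨φ g, g, rfl⟩)⁻¹ * g, h _ _ (hr _)⟩ : K))) := by
    intro a b hab
    simp only [Prod.mk.injEq, Subtype.mk.injEq] at hab
    obtain ⟨h2, h3⟩ := hab
    have h4 : (⟨φ a, a, rfl⟩ : Set.range φ) = ⟨φ b, b, rfl⟩ := h2
    rw [h4] at h3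
    exact mul_left_cancel h3
  have h2 := Nat.card_le_card_of_injective _ h1
  rwa [Nat.card_prod, Nat.card_coe_set_eq] at h2

theorem card_subgroupOf_le {G : Type*} [Group G] [Finite G] (H K : Subgroup G) :
    Nat.card (H.subgroupOf K) ≤ Nat.card H :=
  Nat.card_le_card_of_injective (fun x => (⟨x.1.1, mem_subgroupOf.1 x.2⟩ : H))
    (fun _ _ h => Subtype.ext (Subtype.ext (Subtype.mk.inj h)))

/-- `Q₁ ∩ Q₂` -/
def RR (B : V →ₗ[F] V →ₗ[F] F) (e1 e2 f2 : V) : Subgroup (Sp B) where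
  carrier := {g | g • e1 = e1 ∧ g • e2 = e2 ∧ ∃ s : F, g • f2 = f2 + s • e1}
  one_mem' := ⟨one_smul _ _, one_smul _ _, 0, by rw [one_smul, zero_smul, add_zero]⟩
  mul_mem' := by
    rintro g h ⟨h1, h0, s, h2⟩ ⟨h3, h0', s', h4⟩
    refine ⟨by rw [mul_smul, h3, h1], by rw [mul_smul, h0', h0], s + s', ?_⟩
    rw [mul_smul, h4, smul_add', smul_fsmul, h1, h2, add_smul, add_assoc]
  inv_mem' := by
    rintro g ⟨h1, h0, s, h2⟩
    have h3 : g⁻¹ • e1 = e1 := by rw [inv_smul_eq_iff, h1]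
    refine ⟨h3, by rw [inv_smul_eq_iff, h0], -s, ?_⟩
    rw [inv_smul_eq_iff, smul_add', smul_fsmul, h1, h2, neg_smul, add_neg_cancel_right]

section count

variable {e1 e2 f1 f2 : V} (hB : Symp B) (hb : Bas B e1 e2 f1 f2) [CharP F 2] [Finite F] [Finite V]
include hB hb

theorem mem_RR {g : Sp B} (hg : g ∈ RR B e1 e2 f2) : g = E B e1 (B (g • f1) f2 • e2) (B (g • f1) f1) := by
  obtain ⟨h1, h2, s, h3⟩ := hg
  have h4 := hb.form hB h1 h2
  have h5 : B (g • f2) f2 = 0 := by rw [h3]; simp [hB.alt, hb.h12]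
  rw [h5, t_zero hB, mul_one] at h4
  exact h4

theorem E_sub {γ α α' : F} : (E B e1 (γ • e2) α)⁻¹ * E B e1 (γ • e2) α' = t B e1 (α' - α) := by
  have hw : B e1 (γ • e2) = 0 := by rw [map_smul, hb.hee, smul_zero]
  rw [E_inv hB hw, E_mul hB (by rw [map_neg, hw, neg_zero]) hw, neg_add_cancel, map_neg, hB.alt, neg_zero, add_zero, t]
  congr 1
  ring

theorem card_RR {A : Subgroup (Sp B)} (hno : ∀ a : F, a ≠ 0 → t B e1 a ∉ A) :
    Nat.card (A ⊓ RR B e1 e2 f2 : Subgroup (Sp B)) ≤ Nat.card F := by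
  refine Nat.card_le_card_of_injective (fun g : (A ⊓ RR B e1 e2 f2 : Subgroup (Sp B)) => B ((g : Sp B) • f1) f2) ?_
  rintro ⟨g, hgA, hgR⟩ ⟨h, hhA, hhR⟩ hgh
  simp only at hgh
  apply Subtype.ext
  change g = h
  have h1 := mem_RR hB hb hgR
  have h2 := mem_RR hB hb hhR
  rw [hgh] at h1
  have h3 : g⁻¹ * h = t B e1 (B (h • f1) f1 - B (g • f1) f1) := by
    rw [← E_sub hB hb (γ := B (h • f1) f2), ← h1, ← h2]
  by_contra hne
  refine hno (B (h • f1) f1 - B (g • f1) f1) ?_ ?_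
  · intro h0
    rw [h0, t_zero hB, inv_mul_eq_one] at h3
    exact hne h3
  · rw [← h3]
    exact A.mul_mem (A.inv_mem hgA) hhA

theorem comm_mem {A : Subgroup (Sp B)} {g h : Sp B} (hg : g ∈ A) (hh : h ∈ A) {s : F} (g1 : g • e1 = e1)
    (g2 : g • e2 = e2 + s • e1) (h1 : h • e1 = e1) (h2 : h • e2 = e2) :
    E B e1 ((s * B (h • f2) f2) • e2) (s ^ 2 * B (h • f2) f2) ∈ A := by
  have h3 := hb.form hB h1 h2
  have h4 : g * h * g⁻¹ = h * E B e1 ((s * B (h • f2) f2) • e2) (s ^ 2 * B (h • f2) f2) := by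
    have h5 : g * (E B e1 (B (h • f1) f2 • e2) (B (h • f1) f1) * t B e2 (B (h • f2) f2)) * g⁻¹ =
        (g * E B e1 (B (h • f1) f2 • e2) (B (h • f1) f1) * g⁻¹) * (g * t B e2 (B (h • f2) f2) * g⁻¹) := by
      group
    rw [← h3] at h5
    rw [h5, hb.conj_R hB g1 g2, hb.conj_T hB g2, ← mul_assoc, ← h3]
  have h5 : E B e1 ((s * B (h • f2) f2) • e2) (s ^ 2 * B (h • f2) f2) = h⁻¹ * (g * h * g⁻¹) := by
    rw [h4, inv_mul_cancel_left]
  rw [h5]
  exact A.mul_mem (A.inv_mem hh) (A.mul_mem (A.mul_mem hg hh) (A.inv_mem hg))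

theorem card_AU {A : Subgroup (Sp B)} (hno : ∀ a : F, a ≠ 0 → t B e1 a ∉ A) :
    Nat.card (A ⊓ UU B e1 e2 : Subgroup (Sp B)) ≤ 2 * Nat.card F ^ 2 := by
  set q := Nat.card F with hq
  have he1 : e1 ≠ 0 := by
    rintro rfl
    have := hb.h11
    rw [map_zero, LinearMap.zero_apply] at this
    exact zero_ne_one this
  let φ : (A ⊓ UU B e1 e2 : Subgroup (Sp B)) → F := fun g => B ((g : Sp B) • e2) f1
  let ψ : (A ⊓ QQ B e1 e2 : Subgroup (Sp B)) → F := fun g => B ((g : Sp B) • f2) f2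
  have hφ : ∀ g : (A ⊓ UU B e1 e2 : Subgroup (Sp B)), (g : Sp B) • e2 = e2 + φ g • e1 := by
    rintro ⟨g, hgA, h1, s, h2⟩
    have h3 : B (g • e2) f1 = s := by rw [h2]; simp [hb.h21, hb.h11]
    change g • e2 = e2 + B (g • e2) f1 • e1
    rw [h3, h2]
  have hc1 := card_le_mul φ ((A ⊓ QQ B e1 e2).subgroupOf (A ⊓ UU B e1 e2)) (by
    intro a b hab
    rw [mem_subgroupOf]
    refine ⟨(a⁻¹ * b).2.1, ?_, ?_⟩
    · change ((a⁻¹ * b : (A ⊓ UU B e1 e2 : Subgroup (Sp B))) : Sp B) • e1 = e1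
      exact ((a⁻¹ * b).2.2).1
    · change ((a : Sp B)⁻¹ * (b : Sp B)) • e2 = e2
      rw [mul_smul, inv_smul_eq_iff, hφ a, hφ b, hab])
  have hc2 := card_le_mul ψ ((A ⊓ RR B e1 e2 f2).subgroupOf (A ⊓ QQ B e1 e2)) (by
    rintro ⟨a, haA, ha1, ha2⟩ ⟨b, hbA, hb1, hb2⟩ hab
    change a • e1 = e1 at ha1
    change a • e2 = e2 at ha2
    change b • e1 = e1 at hb1
    change b • e2 = e2 at hb2
    have hab' : B (a • f2) f2 = B (b • f2) f2 := hab
    rw [mem_subgroupOf]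
    refine ⟨A.mul_mem (A.inv_mem haA) hbA, ?_, ?_, B (b • f1) f2 - B (a • f1) f2, ?_⟩
    · change (a⁻¹ * b) • e1 = e1
      rw [mul_smul, inv_smul_eq_iff, ha1, hb1]
    · change (a⁻¹ * b) • e2 = e2
      rw [mul_smul, inv_smul_eq_iff, ha2, hb2]
    · change (a⁻¹ * b) • f2 = f2 + (B (b • f1) f2 - B (a • f1) f2) • e1
      rw [mul_smul, inv_smul_eq_iff, smul_add', smul_fsmul, ha1]
      have key : ∀ k : Sp B, k • e1 = e1 → k • e2 = e2 → k • f2 = f2 + B (k • f1) f2 • e1 + B (k • f2) f2 • e2 := by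
        intro k k1 k2
        have h3 := hb.form hB k1 k2
        have h4 := congrArg (fun g : Sp B => g • f2) h3
        rw [mul_smul, t_smul hB, hb.r22 hB, mul_one, smul_add', smul_fsmul, hb.E_f2' hB, hb.E_e2' hB] at h4
        exact h4
      rw [key a ha1 ha2, key b hb1 hb2, hab']
      module)
  have hc3 : Nat.card ((A ⊓ QQ B e1 e2).subgroupOf (A ⊓ UU B e1 e2)) ≤ Nat.card (A ⊓ QQ B e1 e2 : Subgroup (Sp B)) :=
    card_subgroupOf_le _ _
  have hc4 : Nat.card ((A ⊓ RR B e1 e2 f2).subgroupOf (A ⊓ QQ B e1 e2)) ≤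
      Nat.card (A ⊓ RR B e1 e2 f2 : Subgroup (Sp B)) := card_subgroupOf_le _ _
  have hc5 := card_RR hB hb hno
  -- the commutator map
  set L := Set.range φ with hL
  set D := Set.range ψ with hD
  have hcm : ∀ s ∈ L, ∀ b ∈ D, E B e1 ((s * b) • e2) (s ^ 2 * b) ∈ A := by
    rintro _ ⟨g, rfl⟩ _ ⟨h, rfl⟩
    exact comm_mem hB hb g.2.1 h.2.1 (g.2.2).1 (hφ g) (mem_stabilizer_iff.1 h.2.2.1) (mem_stabilizer_iff.1 h.2.2.2)
  have h0L : (0 : F) ∈ L := ⟨1, by
    change B ((1 : Sp B) • e2) f1 = 0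
    rw [one_smul, hb.h21]⟩
  have h0D : (0 : F) ∈ D := ⟨1, by
    change B ((1 : Sp B) • f2) f2 = 0
    rw [one_smul, hB.alt]⟩
  have hinj : Set.InjOn (fun x : F × F => x.1 * x.2) ((L \ {0}) ×ˢ (D \ {0})) := by
    rintro ⟨s, b⟩ ⟨⟨hs, hs0⟩, hb', hb0⟩ ⟨s', b'⟩ ⟨⟨hs', hs0'⟩, hb'', hb0'⟩ h1
    simp only [Set.mem_singleton_iff] at hs0 hb0 hs0' hb0' h1
    have h2 := hcm s hs b hb'
    have h3 := hcm s' hs' b' hb''
    rw [← h1] at h3
    have h4 := A.mul_mem (A.inv_mem h2) h3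
    rw [E_sub hB hb] at h4
    have h5 : s' ^ 2 * b' - s ^ 2 * b = 0 := by
      by_contra h6
      exact hno _ h6 h4
    have h6 : (s' - s) * (s * b) = 0 := by linear_combination h5 + s' * h1
    have h7 : s' = s := by
      rcases mul_eq_zero.1 h6 with h7 | h7
      · exact sub_eq_zero.1 h7
      · exact absurd h7 (mul_ne_zero hs0 hb0)
    subst h7
    rw [Prod.mk.injEq]
    exact ⟨rfl, mul_left_cancel₀ hs0 h1⟩
  have hle : ((L \ {0}) ×ˢ (D \ {0}) : Set (F × F)).ncard ≤ (({0} : Set F)ᶜ).ncard :=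
    Set.ncard_le_ncard_of_injOn _ (by
      rintro ⟨s, b⟩ ⟨⟨hs, hs0⟩, hb', hb0⟩
      exact mul_ne_zero hs0 hb0) hinj (Set.toFinite _)
  rw [Set.ncard_prod, Set.ncard_sdiff_singleton_of_mem h0L, Set.ncard_sdiff_singleton_of_mem h0D, Set.ncard_compl,
    Set.ncard_singleton, ← hq] at hle
  have hL1 : 0 < L.ncard := (Set.ncard_pos (Set.toFinite _)).2 ⟨0, h0L⟩
  have hD1 : 0 < D.ncard := (Set.ncard_pos (Set.toFinite _)).2 ⟨0, h0D⟩
  have hLq : L.ncard ≤ q := by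
    rw [hq, ← Set.ncard_univ]
    exact Set.ncard_le_ncard (Set.subset_univ _) (Set.toFinite _)
  have hDq : D.ncard ≤ q := by
    rw [hq, ← Set.ncard_univ]
    exact Set.ncard_le_ncard (Set.subset_univ _) (Set.toFinite _)
  have hLD : L.ncard * D.ncard ≤ 2 * q := by
    obtain ⟨l, hl⟩ : ∃ l, L.ncard = l + 1 := ⟨L.ncard - 1, by omega⟩
    obtain ⟨d, hd⟩ : ∃ d, D.ncard = d + 1 := ⟨D.ncard - 1, by omega⟩
    rw [hl, hd] at hle
    rw [hl] at hLq
    rw [hd] at hDq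
    rw [hl, hd]
    simp only [Nat.add_sub_cancel] at hle
    rcases Nat.eq_zero_or_pos l with rfl | hl0
    · omega
    rcases Nat.eq_zero_or_pos d with rfl | hd0
    · omega
    obtain ⟨l', rfl⟩ : ∃ l', l = l' + 1 := ⟨l - 1, by omega⟩
    obtain ⟨d', rfl⟩ : ∃ d', d = d' + 1 := ⟨d - 1, by omega⟩
    have h1 : (l' + 1) * (d' + 1) = l' * d' + l' + d' + 1 := by ring
    have h2 : (l' + 1 + 1) * (d' + 1 + 1) = l' * d' + 2 * l' + 2 * d' + 4 := by ring
    have h3 := Nat.zero_le (l' * d')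
    rw [h2]
    rw [h1] at hle
    omega
  calc Nat.card (A ⊓ UU B e1 e2 : Subgroup (Sp B))
      ≤ L.ncard * (D.ncard * q) := hc1.trans (Nat.mul_le_mul_left _ (hc3.trans (hc2.trans
        (Nat.mul_le_mul_left _ (hc4.trans hc5)))))
    _ = (L.ncard * D.ncard) * q := by ring
    _ ≤ (2 * q) * q := Nat.mul_le_mul_right _ hLD
    _ = 2 * q ^ 2 := by ring

theorem card_UU : Nat.card F ^ 4 ≤ Nat.card (UU B e1 e2) := by
  have hT : ∀ s γ a b : F, E B e1 (s • f2 + γ • e2) a * t B e2 b ∈ UU B e1 e2 := by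
    intro s γ a b
    refine ⟨?_, s, ?_⟩
    · rw [mul_smul, t_smul hB, hb.hee, mul_zero, zero_smul, add_zero, hb.E_e1 hB]
    · rw [mul_smul, t_smul hB, hB.alt, mul_zero, zero_smul, add_zero, hb.E_e2 hB]
  have h1 : Function.Injective (fun x : F × F × F × F => (⟨_, hT x.1 x.2.1 x.2.2.1 x.2.2.2⟩ : UU B e1 e2)) := by
    rintro ⟨s, γ, a, b⟩ ⟨s', γ', a', b'⟩ h
    simp only [Subtype.mk.injEq] at h
    have h2 := congrArg (fun g : Sp B => g • f1) h
    simp only [mul_smul, t_smul hB, hb.r21 hB, mul_zero, zero_smul, add_zero, hb.E_f1 hB] at h2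
    have h3 := congrArg (fun g : Sp B => g • f2) h
    simp only [mul_smul, t_smul hB, hb.r22 hB, mul_one, smul_add', smul_fsmul, hb.E_f2 hB, hb.E_e2 hB] at h3
    have g1 := congrArg (fun x => B x e2) h2
    have g2 := congrArg (fun x => B x f2) h2
    have g3 := congrArg (fun x => B x f1) h2
    have g4 := congrArg (fun x => B x f2) h3
    simp only [map_add, map_smul, LinearMap.add_apply, LinearMap.smul_apply, smul_eq_mul,
      hB.alt, hb.h11, hb.h22, hb.hee, hb.hff, hb.h12, hb.h21, hb.r11 hB, hb.r22 hB, hb.ree hB, hb.rff hB, hb.r12 hB,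
      hb.r21 hB, mul_zero, mul_one, zero_add, add_zero] at g1 g2 g3 g4
    rw [Prod.mk.injEq, Prod.mk.injEq, Prod.mk.injEq]
    exact ⟨g1, g2, g3, g4⟩
  have h2 := Nat.card_le_card_of_injective _ h1
  rw [Nat.card_prod, Nat.card_prod, Nat.card_prod] at h2
  refine le_trans (le_of_eq ?_) h2
  ring

/-- the involution `t` is centralised by `U` -/
theorem UU_le {x : Sp B} (h1 : x • e1 = e1) (h2 : x • e2 = e2) (h3 : B (x • f2) f2 = 0) :
    UU B e1 e2 ≤ centralizer {x} := by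
  rintro g ⟨g1, s, g2⟩
  have h4 := hb.form hB h1 h2
  rw [h3, t_zero hB, mul_one] at h4
  rw [mem_centralizer_singleton_iff, ← mul_inv_eq_iff_eq_mul, h4, hb.conj_R hB g1 g2]

end count

end Cfsg.Agent.H580.Fx
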