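import Cfsg.Agent.H580.IF.EvenB

/-!
# S5719, PSp_4(q), q even: the contradiction in `Sp B` (helper580)
-/

set_option autoImplicit false
set_option linter.unusedSectionVars false
set_option linter.unusedSimpArgs false

namespace Cfsg.Agent.H580.Fx

open MulAction Subgroup Module Cfsg.Agent.H74.Psp

variable {F V : Type*} [Field F] [AddCommGroup V] [Module F V] {B : V →ₗ[F] V →ₗ[F] F}

section basis

variable [Finite F] [Finite V] (hB : Symp B) (hV : Nat.card V = Nat.card F ^ 4)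
include hB hV

theorem bas_of {e1 e2 : V} (h1 : e1 ≠ 0) (h12 : B e1 e2 = 0) (h2 : ∀ a : F, e2 ≠ a • e1) :
    ∃ f1 f2, Bas B e1 e2 f1 f2 := by
  have : FiniteDimensional F V := inferInstance
  obtain ⟨f2, h3, h4⟩ := sep1 hB h2
  have h5 : ∀ a b : F, e1 ≠ a • e2 + b • f2 := by
    intro a b h
    have h6 : B e1 e2 = a * 0 + b * B f2 e2 := by
      nth_rewrite 1 [h]
      rw [map_add, LinearMap.add_apply, map_smul, map_smul, LinearMap.smul_apply, LinearMap.smul_apply, hB.alt,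
        smul_eq_mul, smul_eq_mul]
    rw [h12, skew hB f2 e2, h4] at h6
    have hb : b = 0 := by linear_combination h6
    rw [hb, zero_smul, add_zero] at h
    have ha : a ≠ 0 := by
      rintro rfl
      rw [zero_smul] at h
      exact h1 h
    apply h2 a⁻¹
    rw [h, smul_smul, inv_mul_cancel₀ ha, one_smul]
  obtain ⟨f1, h6, h7, h8⟩ := sep2 hB h5
  refine ⟨f1, f2, h8, h4, h12, orth_symm hB h7, h3, h6, ?_⟩
  let T : V → F × F × F × F := fun x => (B x e1, B x e2, B x f1, B x f2)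
  have hT : Function.Surjective T := by
    rintro ⟨a, b, c, d⟩
    refine ⟨c • e1 + d • e2 - a • f1 - b • f2, ?_⟩
    simp only [T, map_add, map_sub, map_smul, LinearMap.add_apply, LinearMap.sub_apply, LinearMap.smul_apply,
      smul_eq_mul, hB.alt, h8, h4, h12, h7, h3, h6, orth_symm hB h7, orth_symm hB h3, orth_symm hB h6,
      orth_symm hB h12, skew hB f1 e1, skew hB f2 e2]
    rw [Prod.mk.injEq, Prod.mk.injEq, Prod.mk.injEq]
    refine ⟨?_, ?_, ?_, ?_⟩ <;> ring
  have hTb := (Nat.bijective_iff_surjective_and_card T).2 ⟨hT, by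
    rw [Nat.card_prod, Nat.card_prod, Nat.card_prod, hV]
    ring⟩
  intro x x1 x2 x3 x4
  apply hTb.1
  simp only [T, x1, x2, x3, x4, map_zero, LinearMap.zero_apply]

theorem bas_of' {e1 : V} (h1 : e1 ≠ 0) : ∃ e2 f1 f2, Bas B e1 e2 f1 f2 := by
  obtain ⟨w, hw⟩ := sep0 hB h1
  obtain ⟨z, hz, h2, h3⟩ := exists_orth2 hB hV e1 w
  obtain ⟨f1, f2, h⟩ := bas_of hB hV h1 h2 (by
    intro a ha
    rw [ha, map_smul, skew hB, hw, smul_eq_mul] at h3
    have ha0 : a = 0 := by linear_combination -h3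
    rw [ha0, zero_smul] at ha
    exact hz ha)
  exact ⟨z, f1, f2, h⟩

variable [CharP F 2]

omit hV in
theorem exists_vec {g : Sp B} (hg : g * g = 1) : ∃ x₀ : V, ∀ x, B (g • x) x = B x x₀ ^ 2 := by
  have : PerfectRing F 2 := PerfectRing.ofFiniteOfIsReduced 2 F
  have hadd : ∀ a b : F, (frobeniusEquiv F 2).symm (a + b) = (frobeniusEquiv F 2).symm a + (frobeniusEquiv F 2).symm b :=
    fun a b => map_add _ a b
  have hinv : g⁻¹ = g := inv_eq_of_mul_eq_one_left hg
  let φ : V →ₗ[F] F :=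
    { toFun := fun v => (frobeniusEquiv F 2).symm (B (g • v) v)
      map_add' := fun v w => by
        rw [← hadd]
        have h3 : B (g • (v + w)) (v + w) = B (g • v) v + B (g • w) w := by
          rw [smul_add', map_add, map_add, LinearMap.add_apply, LinearMap.add_apply]
          have h4 : B (g • w) v = - B (g • v) w := by
            rw [B_smul_left, hinv, skew hB]
          rw [h4]
          ring
        rw [h3]
      map_smul' := fun c v => by
        have h3 : B (g • (c • v)) (c • v) = c ^ 2 * B (g • v) v := by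
          rw [smul_fsmul, map_smul, map_smul, LinearMap.smul_apply, smul_eq_mul, smul_eq_mul]
          ring
        have h4 : (frobeniusEquiv F 2).symm (c ^ 2) = c := by
          rw [← frobenius_def, ← frobeniusEquiv_apply, RingEquiv.symm_apply_apply]
        rw [h3, map_mul, h4, RingHom.id_apply, smul_eq_mul] }
  have : FiniteDimensional F V := inferInstance
  obtain ⟨y, hy⟩ := repr hB φ
  refine ⟨y, fun x => ?_⟩
  rw [hy]
  have h3 : frobeniusEquiv F 2 (φ x) = B (g • x) x := RingEquiv.apply_symm_apply _ _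
  rw [← h3, frobeniusEquiv_apply, frobenius_def]

theorem exists_bas {g : Sp B} (hg : g * g = 1) (hg1 : g ≠ 1) :
    ∃ e1 e2 f1 f2, Bas B e1 e2 f1 f2 ∧ g • e1 = e1 ∧ g • e2 = e2 ∧ B (g • f2) f2 = 0 := by
  have hinv : g⁻¹ = g := inv_eq_of_mul_eq_one_left hg
  have hgg : ∀ x : V, g • g • x = x := fun x => by rw [← mul_smul, hg, one_smul]
  have hneg : ∀ x : V, -x = x := by
    intro x
    have h1 : (-1 : F) • x = (1 : F) • x := by rw [CharTwo.neg_eq]
    rwa [neg_smul, one_smul] at h1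
  obtain ⟨x₀, hx₀⟩ := exists_vec hB hg
  -- step 1
  obtain ⟨e1, he1, hge1, hperp⟩ : ∃ e1 : V, e1 ≠ 0 ∧ g • e1 = e1 ∧ ∀ x, B x e1 = 0 → B (g • x) x = 0 := by
    by_cases h0 : x₀ = 0
    · obtain ⟨x, hx⟩ : ∃ x : V, g • x ≠ x := by
        by_contra! hcon
        exact hg1 (Sp.ext' fun x => by rw [hcon, one_smul])
      refine ⟨g • x - x, sub_ne_zero.2 hx, ?_, fun y _ => ?_⟩
      · rw [smul_sub, hgg, ← neg_sub, hneg]
      · rw [hx₀, h0, map_zero, zero_pow two_ne_zero]
    · refine ⟨x₀, h0, ?_, fun x hx => by rw [hx₀, hx, zero_pow two_ne_zero]⟩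
      rw [← sub_eq_zero]
      apply hB.nd
      intro y
      rw [skew hB, neg_eq_zero, map_sub, sub_eq_zero]
      have h1 : B y (g • x₀) = B (g • y) x₀ := by
        rw [B_smul_left, hinv]
      have h2 : B (g • y) x₀ ^ 2 = B y x₀ ^ 2 := by
        rw [← hx₀, ← hx₀, hgg, skew hB, CharTwo.neg_eq]
      rw [h1]
      have h3 : (B (g • y) x₀ - B y x₀) ^ 2 = 0 := by
        have h4 : (2 : F) = 0 := CharTwo.two_eq_zero
        linear_combination h2 + (B y x₀ ^ 2 - B (g • y) x₀ * B y x₀) * h4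
      exact sub_eq_zero.1 (pow_eq_zero_iff two_ne_zero |>.1 h3)
  -- step 2
  obtain ⟨y1, f1, y2, hb⟩ := bas_of' hB hV he1
  obtain ⟨e2, he2, hge2, hind⟩ : ∃ e2 : V, B e1 e2 = 0 ∧ g • e2 = e2 ∧ ∀ a : F, e2 ≠ a • e1 := by
    have horth : ∀ y, B e1 y = 0 → B e1 (g • y - y) = 0 := by
      intro y hy
      rw [map_sub, hy, sub_zero, ← hge1, B_smul_smul, hy]
    have hfix : ∀ y : V, g • (g • y - y) = g • y - y := by
      intro y
      rw [smul_sub, hgg, ← neg_sub, hneg]
    by_cases c1 : ∀ a : F, g • y1 - y1 ≠ a • e1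
    · exact ⟨g • y1 - y1, horth _ hb.hee, hfix y1, c1⟩
    by_cases c2 : ∀ a : F, g • y2 - y2 ≠ a • e1
    · exact ⟨g • y2 - y2, horth _ hb.h12, hfix y2, c2⟩
    push Not at c1 c2
    obtain ⟨a1, ha1⟩ := c1
    obtain ⟨a2, ha2⟩ := c2
    rw [sub_eq_iff_eq_add] at ha1 ha2
    by_cases h0 : a1 = 0
    · refine ⟨y1, hb.hee, by rw [ha1, h0, zero_smul, zero_add], ?_⟩
      intro a ha
      have h1 := hb.h22
      rw [ha, map_smul, LinearMap.smul_apply, hb.h12, smul_zero] at h1
      exact zero_ne_one h1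
    · refine ⟨a2 • y1 - a1 • y2, ?_, ?_, ?_⟩
      · rw [map_sub, map_smul, map_smul, hb.hee, hb.h12, smul_zero, smul_zero, sub_zero]
      · rw [smul_sub, smul_fsmul, smul_fsmul, ha1, ha2]
        module
      · intro a ha
        have h1 : B (a2 • y1 - a1 • y2) y1 = 0 := by
          rw [ha, map_smul, LinearMap.smul_apply, hb.hee, smul_zero]
        rw [map_sub, LinearMap.sub_apply, map_smul, map_smul, LinearMap.smul_apply, LinearMap.smul_apply, hB.alt,
          hb.r22 hB, smul_eq_mul, smul_eq_mul] at h1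
        apply h0
        linear_combination -h1
  obtain ⟨f1', f2', hb'⟩ := bas_of hB hV he1 he2 hind
  exact ⟨e1, e2, f1', f2', hb', hge1, hge2, hperp _ (orth_symm hB hb'.h12)⟩

/-- **Sp_4(q), q even**: no counterexample (E2) with an involution. -/
theorem even_false {A : Subgroup (Sp B)} (hA : HE2 A) (hne : ∃ x, ¬ Tv A x) (hq : 4 ≤ Nat.card F)
    (hcard : Nat.card (Sp B) = Nat.card F ^ 4 * ((Nat.card F ^ 2 - 1) * (Nat.card F ^ 4 - 1))) {g : Sp B}
    (hgA : g ∈ A) (hg1 : g ≠ 1) (hg : g * g = 1) : False := by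
  have hno : ∀ v : V, v ≠ 0 → ∀ a : F, a ≠ 0 → t B v a ∉ A := by
    intro v hv a ha h
    obtain ⟨x, hx⟩ := hne
    exact hx (all_Tv hB hV hA hv ha h x)
  obtain ⟨e1, e2, f1, f2, hb, h1, h2, h3⟩ := exists_bas hB hV hg hg1
  have he1 : e1 ≠ 0 := by
    rintro rfl
    have := hb.h11
    rw [map_zero, LinearMap.zero_apply] at this
    exact zero_ne_one this
  have hle := UU_le hB hb h1 h2 h3
  have h4 := hA g hgA hg1 hg _ hle
  have h5 := card_AU hB hb (hno e1 he1)
  have h6 := card_UU hB hb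
  have h7 : (centralizer {g}).index ≤ (UU B e1 e2).index := Subgroup.index_antitone hle
  have h8 := (UU B e1 e2).card_mul_index
  have h9 : Nat.card (A ⊓ UU B e1 e2 : Subgroup (Sp B)) * A.relIndex (UU B e1 e2) = Nat.card (UU B e1 e2) := by
    have h10 := (A.subgroupOf (UU B e1 e2)).card_mul_index
    have h11 : Nat.card (A.subgroupOf (UU B e1 e2)) = Nat.card (A ⊓ UU B e1 e2 : Subgroup (Sp B)) := by
      rw [← Subgroup.inf_subgroupOf_right]
      exact Nat.card_congr (Subgroup.subgroupOfEquivOfLe inf_le_right).toEquiv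
    rw [h11] at h10
    exact h10
  rw [hcard] at h8
  generalize Nat.card F = q at *
  generalize A.relIndex (UU B e1 e2) = r at *
  generalize Nat.card (A ⊓ UU B e1 e2 : Subgroup (Sp B)) = m at *
  generalize Nat.card (UU B e1 e2) = u at *
  generalize (UU B e1 e2).index = i at *
  have hi : i < q ^ 6 := by
    have h10 : q ^ 4 * i ≤ q ^ 4 * ((q ^ 2 - 1) * (q ^ 4 - 1)) := by
      rw [← h8]
      exact Nat.mul_le_mul_right _ h6
    have h11 : i ≤ (q ^ 2 - 1) * (q ^ 4 - 1) := Nat.le_of_mul_le_mul_left h10 (by positivity)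
    have h12 : (q ^ 2 - 1) * (q ^ 4 - 1) < q ^ 2 * q ^ 4 := by
      apply Nat.mul_lt_mul_of_lt_of_le
      · have : 0 < q ^ 2 := by positivity
        omega
      · omega
      · positivity
    calc i ≤ _ := h11
      _ < _ := h12
      _ = q ^ 6 := by ring
  have hr : r ^ 5 < q ^ 6 := h4.trans (lt_of_le_of_lt h7 hi)
  have h10 : q ^ 2 * q ^ 2 ≤ (2 * r) * q ^ 2 := by
    calc q ^ 2 * q ^ 2 = q ^ 4 := by ring
      _ ≤ u := h6
      _ = m * r := h9.symm
      _ ≤ (2 * q ^ 2) * r := Nat.mul_le_mul_right _ h5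
      _ = (2 * r) * q ^ 2 := by ring
  have h11 : q ^ 2 ≤ 2 * r := Nat.le_of_mul_le_mul_right h10 (by positivity)
  have h12 : (q ^ 2) ^ 5 ≤ (2 * r) ^ 5 := Nat.pow_le_pow_left h11 5
  have h13 : (2 * r) ^ 5 = 32 * r ^ 5 := by ring
  have h14 : q ^ 6 * q ^ 4 < q ^ 6 * 32 := by
    calc q ^ 6 * q ^ 4 = (q ^ 2) ^ 5 := by ring
      _ ≤ 32 * r ^ 5 := by rw [← h13]; exact h12
      _ < 32 * q ^ 6 := by omega
      _ = q ^ 6 * 32 := by ring
  have h15 : q ^ 4 < 32 := Nat.lt_of_mul_lt_mul_left h14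
  have h16 : 4 ^ 4 ≤ q ^ 4 := Nat.pow_le_pow_left hq 4
  omega

end basis

end Cfsg.Agent.H580.Fx
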